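import Mathlib
import Cfsg.Prelude.Def_Characters
import Cfsg.Prelude.Def_Blocks
import Cfsg.Agent.Lib.Helper3.CharValues
import Cfsg.Agent.Lib.Helper75.CharDecomp
import Cfsg.Agent.Lib.Helper75.CharInd
import Cfsg.Agent.Lib.Helper75.Clifford
import Cfsg.Agent.Lib.Helper75.CliffordAct
import Cfsg.Agent.Lib.Helper75.CliffordCorr
import Cfsg.Agent.Lib.Helper80.CharOps

set_option autoImplicit false
set_option linter.unusedSectionVars false
set_option linter.style.haveILetI false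

namespace Cfsg.Agent.Lib.Helper75

open Representation Module
open Cfsg.Agent.Lib.Helper3
open scoped ComplexConjugate

universe u

variable {G : Type u} [Group G]

/-- splitting a sum over `G` into a subgroup and its complement -/
theorem sum_eq_sum_subgroup_add [Fintype G] (H : Subgroup G) [Fintype H] [DecidablePred (· ∈ H)]
    {M : Type*} [AddCommMonoid M] (F : G → M) :
    ∑ g, F g = ∑ h : H, F h + ∑ g ∈ Finset.univ.filter (fun g => g ∉ H), F g := by
  rw [← Finset.sum_filter_add_sum_filter_not Finset.univ (· ∈ H) F]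
  congr 1
  exact Finset.sum_subtype (Finset.univ.filter (· ∈ H)) (by simp) F

variable (N : Subgroup G) [hN : N.Normal] [Fintype N] [Fintype G]

theorem sum_norm_sq_res {χ : G → ℂ} {ϑ : N → ℂ} (hϑ : Cfsg.IsIrrCharacter N ϑ) (e : ℕ)
    (hres : (fun n : N => χ n) = (e : ℂ) • ϑ) :
    ∑ n : N, ‖χ n‖ ^ 2 = (e : ℝ) ^ 2 * (Nat.card N : ℝ) := by
  rw [← Helper80.sum_norm_sq_eq_card hϑ, Finset.mul_sum]
  refine Finset.sum_congr rfl (fun n _ => ?_)
  have := congrFun hres n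
  simp only [Pi.smul_apply, smul_eq_mul] at this
  rw [this, norm_mul, mul_pow]
  simp

/-- `χ_N = eϑ` with `e² = |G:N|` forces `χ` to vanish off `N` -/
theorem vanish_off_of_sq_eq {χ : G → ℂ} (hχ : Cfsg.IsIrrCharacter G χ) {ϑ : N → ℂ}
    (hϑ : Cfsg.IsIrrCharacter N ϑ) (e : ℕ) (hres : (fun n : N => χ n) = (e : ℂ) • ϑ)
    (he : e ^ 2 = N.index) : ∀ g : G, g ∉ N → χ g = 0 := by
  classical
  have h1 := Helper80.sum_norm_sq_eq_card hχ
  rw [sum_eq_sum_subgroup_add N (fun g => ‖χ g‖ ^ 2), sum_norm_sq_res N hϑ e hres] at h1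
  have h2 : (e : ℝ) ^ 2 * (Nat.card N : ℝ) = (Nat.card G : ℝ) := by
    rw [← Subgroup.card_mul_index N, ← he]
    push_cast
    ring
  rw [h2] at h1
  have h3 : ∑ g ∈ Finset.univ.filter (fun g => g ∉ N), ‖χ g‖ ^ 2 = 0 := by linarith
  rw [Finset.sum_eq_zero_iff_of_nonneg (fun g _ => by positivity)] at h3
  intro g hg
  have := h3 g (by simp [hg])
  simpa using this

/-- `χ_N = eϑ` with `e ≠ 0` forces `ϑ` to be invariant -/
theorem invariant_of_res_eq_smul {χ : G → ℂ} (hχ : Cfsg.IsClassFunction G χ) {ϑ : N → ℂ}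
    (e : ℂ) (he : e ≠ 0) (hres : (fun n : N => χ n) = e • ϑ) :
    ∀ g : G, conjChar N ϑ g = ϑ := by
  intro g
  have h1 := conjChar_res N hχ g
  rw [hres] at h1
  funext n
  have h2 := congrFun h1 n
  have h3 : conjChar N (e • ϑ) g n = e * conjChar N ϑ g n := rfl
  rw [h3] at h2
  simp only [Pi.smul_apply, smul_eq_mul] at h2
  exact mul_left_cancel₀ he h2

/-- `χ_N = eϑ` and `χ` vanishing off `N` force `e² = |G:N|` -/
theorem sq_eq_index_of_vanish {χ : G → ℂ} (hχ : Cfsg.IsIrrCharacter G χ) {ϑ : N → ℂ}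
    (hϑ : Cfsg.IsIrrCharacter N ϑ) (e : ℕ) (hres : (fun n : N => χ n) = (e : ℂ) • ϑ)
    (hv : ∀ g : G, g ∉ N → χ g = 0) : e ^ 2 = N.index := by
  classical
  have h1 := Helper80.sum_norm_sq_eq_card hχ
  rw [sum_eq_sum_subgroup_add N (fun g => ‖χ g‖ ^ 2), sum_norm_sq_res N hϑ e hres] at h1
  have h3 : ∑ g ∈ Finset.univ.filter (fun g => g ∉ N), ‖χ g‖ ^ 2 = 0 := by
    apply Finset.sum_eq_zero
    intro g hg
    rw [hv g (by simpa using hg)]
    simp
  rw [h3, add_zero, ← Subgroup.card_mul_index N] at h1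
  have hN0 : (Nat.card N : ℝ) ≠ 0 := by
    exact_mod_cast (Nat.card_pos (α := N)).ne'
  have h4 : ((e ^ 2 : ℕ) : ℝ) = (N.index : ℝ) := by
    push_cast at h1 ⊢
    have : (Nat.card N : ℝ) * (e : ℝ) ^ 2 = (Nat.card N : ℝ) * (N.index : ℝ) := by linarith
    exact mul_left_cancel₀ hN0 this
  exact_mod_cast h4

/-- the multiplicity of `ψ` in the induced character, as a natural number -/
theorem classInner_ind_eq_nat {ψ : G → ℂ} (hψ : Cfsg.IsCharacter G ψ) {ϑ : N → ℂ}
    (hϑ : Cfsg.IsCharacter N ϑ) (m : ℕ) (hm : Cfsg.classInner (fun n : N => ψ n) ϑ = m) :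
    Cfsg.classInner (Cfsg.indFun N ϑ) ψ = m := by
  rw [frobenius_reciprocity N ϑ (isClassFunction_of_isCharacter hψ), classInner_conj_symm, hm]
  simp

/-- if `χ_N = eϑ` with `e² = |G:N|` then `χ` is the only constituent of `ϑ^G` -/
theorem eq_of_constituent_ind {χ : G → ℂ} (hχ : Cfsg.IsIrrCharacter G χ) {ϑ : N → ℂ}
    (hϑ : Cfsg.IsIrrCharacter N ϑ) (e : ℕ) (hres : (fun n : N => χ n) = (e : ℂ) • ϑ)
    (he : e ^ 2 = N.index) {ψ : G → ℂ} (hψ : Cfsg.IsIrrCharacter G ψ)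
    (hψ0 : Cfsg.classInner (Cfsg.indFun N ϑ) ψ ≠ 0) : ψ = χ := by
  classical
  haveI : Fintype (Cfsg.IrrCharacter G) := Fintype.ofFinite _
  by_contra hne
  have hI := isCharacter_indFun N (isCharacter_of_irr hϑ)
  obtain ⟨m, hm, hexp⟩ := Helper80.character_expansion hI
  have hsum := Helper80.charDegree_eq_sum hI m hexp
  have hϑ1 := Helper80.char_one_eq_charDegree (isCharacter_of_irr hϑ)
  -- degree of the induced character
  have hdI : Cfsg.charDegree (Cfsg.indFun N ϑ) = N.index * Cfsg.charDegree ϑ := by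
    have := Helper80.char_one_eq_charDegree hI
    rw [indFun_one, hϑ1] at this
    exact_mod_cast this.symm
  -- degree of χ
  have hdχ : Cfsg.charDegree χ = e * Cfsg.charDegree ϑ := by
    have := Helper80.char_one_eq_charDegree (isCharacter_of_irr hχ)
    have h2 := congrFun hres 1
    simp only [Pi.smul_apply, smul_eq_mul] at h2
    have h3 : χ 1 = (e : ℂ) * ϑ 1 := h2
    rw [h3, hϑ1] at this
    exact_mod_cast this.symm
  -- multiplicity of χ
  have hmχ : m ⟨χ, hχ⟩ = e := by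
    have h1 : Cfsg.classInner (fun n : N => χ n) ϑ = e := by
      rw [hres, classInner_smul_left, classInner_irr_self hϑ, mul_one]
    have h2 := classInner_ind_eq_nat N (isCharacter_of_irr hχ) (isCharacter_of_irr hϑ) e h1
    have h3 := hm ⟨χ, hχ⟩
    rw [h2] at h3
    exact_mod_cast h3.symm
  have hmψ : m ⟨ψ, hψ⟩ ≠ 0 := by
    intro h0
    apply hψ0
    rw [hm ⟨ψ, hψ⟩, h0]
    simp
  have hne' : (⟨χ, hχ⟩ : Cfsg.IrrCharacter G) ≠ ⟨ψ, hψ⟩ := by
    intro h
    apply hne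
    exact (congrArg Subtype.val h).symm
  have hle : m ⟨χ, hχ⟩ * Cfsg.charDegree χ + m ⟨ψ, hψ⟩ * Cfsg.charDegree ψ ≤
      ∑ φ : Cfsg.IrrCharacter G, m φ * Cfsg.charDegree (φ : G → ℂ) := by
    rw [← Finset.sum_pair (f := fun φ : Cfsg.IrrCharacter G => m φ * Cfsg.charDegree (φ : G → ℂ)) hne']
    exact Finset.sum_le_sum_of_subset (Finset.subset_univ _)
  rw [← hsum, hdI, hmχ, hdχ, ← he] at hle
  have hpos : 0 < m ⟨ψ, hψ⟩ * Cfsg.charDegree ψ :=
    Nat.mul_pos (Nat.pos_of_ne_zero hmψ) (Helper80.charDegree_pos hψ)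
  have : e * (e * Cfsg.charDegree ϑ) = e ^ 2 * Cfsg.charDegree ϑ := by ring
  omega

/-- if `χ` is the only constituent of `ϑ^G` and `χ_N = eϑ` then `e² = |G:N|` -/
theorem sq_eq_index_of_unique {χ : G → ℂ} (hχ : Cfsg.IsIrrCharacter G χ) {ϑ : N → ℂ}
    (hϑ : Cfsg.IsIrrCharacter N ϑ) (e : ℕ) (hres : (fun n : N => χ n) = (e : ℂ) • ϑ)
    (huniq : ∀ ψ : G → ℂ, Cfsg.IsIrrCharacter G ψ →
      Cfsg.classInner (Cfsg.indFun N ϑ) ψ ≠ 0 → ψ = χ) : e ^ 2 = N.index := by
  classical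
  haveI : Fintype (Cfsg.IrrCharacter G) := Fintype.ofFinite _
  have hI := isCharacter_indFun N (isCharacter_of_irr hϑ)
  obtain ⟨m, hm, hexp⟩ := Helper80.character_expansion hI
  have hϑ1 := Helper80.char_one_eq_charDegree (isCharacter_of_irr hϑ)
  have hmχ : m ⟨χ, hχ⟩ = e := by
    have h1 : Cfsg.classInner (fun n : N => χ n) ϑ = e := by
      rw [hres, classInner_smul_left, classInner_irr_self hϑ, mul_one]
    have h2 := classInner_ind_eq_nat N (isCharacter_of_irr hχ) (isCharacter_of_irr hϑ) e h1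
    have h3 := hm ⟨χ, hχ⟩
    rw [h2] at h3
    exact_mod_cast h3.symm
  have hexp' : Cfsg.indFun N ϑ = (e : ℂ) • χ := by
    rw [hexp, Finset.sum_eq_single (⟨χ, hχ⟩ : Cfsg.IrrCharacter G), hmχ]
    · intro φ _ hne
      by_cases h0 : m φ = 0
      · rw [h0]
        simp
      · exfalso
        apply hne
        apply Subtype.ext
        apply huniq φ φ.2
        rw [hm φ]
        exact_mod_cast h0
    · intro hcon
      exact absurd (Finset.mem_univ _) hcon
  have h1 := congrFun hexp' 1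
  have h2 := congrFun hres 1
  simp only [Pi.smul_apply, smul_eq_mul] at h1 h2
  have h3 : χ 1 = (e : ℂ) * ϑ 1 := h2
  rw [indFun_one, h3] at h1
  have hϑ10 : ϑ 1 ≠ 0 := Helper80.char_one_ne_zero hϑ
  have h4 : ((e ^ 2 : ℕ) : ℂ) = (N.index : ℂ) := by
    push_cast
    have : ϑ 1 * ((e : ℂ) ^ 2) = ϑ 1 * (N.index : ℂ) := by linear_combination -h1
    exact mul_left_cancel₀ hϑ10 this
  exact_mod_cast h4

end Cfsg.Agent.Lib.Helper75
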