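import Mathlib
import Cfsg.Prelude.Def_OddOrderLocal
import Cfsg.Agent.Lib.Helper23.Transitivity3
import Cfsg.Agent.Lib.Helper24.PRank
import Cfsg.Agent.Lib.Helper69.Kulakoff
import Cfsg.Agent.Lib.Helper20.BG.S1408Core

/-!
Utilities for the Bender–Glauberman chain: rank-one `p`-groups of odd order are cyclic,
coprime-image lemma, uniqueness of Hall subgroups of nilpotent groups.
-/

set_option autoImplicit false

namespace Cfsg.Agent.Lib.Helper75.BG

open Cfsg

/-- A finite `p`-group (`p` odd) of `p`-rank at most one is cyclic (via Kulakoff). -/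
theorem isCyclic_of_pRankLE_one.{u} {P : Type u} [Group P] [Finite P] (p : ℕ) [hp : Fact p.Prime]
    (hp2 : p ≠ 2) (hP : IsPGroup p P) (h : Cfsg.PRankLE p 1 P) : IsCyclic P := by
  by_contra hnc
  have hpp : p.Prime := hp.out
  obtain ⟨n, hn⟩ := IsPGroup.iff_card.mp hP
  have hn2 : 2 ≤ n := by
    by_contra hlt
    have h01 : n = 0 ∨ n = 1 := by omega
    rcases h01 with rfl | rfl
    · rw [pow_zero] at hn
      haveI : Subsingleton P := (Nat.card_eq_one_iff_unique.mp hn).1
      exact hnc inferInstance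
    · rw [pow_one] at hn
      exact hnc (isCyclic_of_prime_card hn)
  have hk := Cfsg.Agent.Lib.Helper69.kulakoff p hp2 n P hn hnc 1 le_rfl (by omega)
  have hp2le : 2 ≤ p := hpp.two_le
  have hlt : p + 1 < p ^ 2 := by nlinarith
  have hcard2 : 1 < Nat.card (Cfsg.Agent.Lib.Helper69.OrdSub P (p ^ 1)) := by
    by_contra hle
    have h01 : Nat.card (Cfsg.Agent.Lib.Helper69.OrdSub P (p ^ 1)) = 0 ∨
        Nat.card (Cfsg.Agent.Lib.Helper69.OrdSub P (p ^ 1)) = 1 := by omega
    rcases h01 with h0 | h1
    · rw [h0] at hk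
      have h2 : ((1 + p : ℕ) : ZMod (p ^ 2)) = 0 := by
        push_cast
        rw [← hk]
        simp
      rw [ZMod.natCast_eq_zero_iff] at h2
      have := Nat.le_of_dvd (by omega) h2
      omega
    · rw [h1] at hk
      have h2 : ((p : ℕ) : ZMod (p ^ 2)) = 0 := by
        have h3 : ((1 : ℕ) : ZMod (p ^ 2)) = 1 + (p : ZMod (p ^ 2)) := hk
        have h4 : (1 : ZMod (p ^ 2)) = 1 + (p : ZMod (p ^ 2)) := by simpa using h3
        have h5 : (1 : ZMod (p ^ 2)) + 0 = 1 + (p : ZMod (p ^ 2)) := by rw [add_zero]; exact h4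
        exact (add_left_cancel h5).symm
      rw [ZMod.natCast_eq_zero_iff] at h2
      have := Nat.le_of_dvd (by omega) h2
      nlinarith
  haveI : Finite (Cfsg.Agent.Lib.Helper69.OrdSub P (p ^ 1)) := inferInstance
  haveI : Nontrivial (Cfsg.Agent.Lib.Helper69.OrdSub P (p ^ 1)) :=
    Finite.one_lt_card_iff_nontrivial.mp hcard2
  obtain ⟨X, Y, hXY⟩ := exists_pair_ne (Cfsg.Agent.Lib.Helper69.OrdSub P (p ^ 1))
  have hX : Nat.card X.1 = p := by rw [X.2, pow_one]
  have hY : Nat.card Y.1 = p := by rw [Y.2, pow_one]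
  have hne : X.1 ≠ Y.1 := fun h => hXY (Subtype.ext h)
  obtain ⟨A, -, hAe, -, hAcard⟩ :=
    Cfsg.Agent.Lib.Helper20.BG.ea_of_two_order_p (P := (⊤ : Subgroup P)) (hP.to_subgroup ⊤)
      le_top le_top hX hY hne
  have := h A hAe.1 hAe.2
  rw [pow_one] at this
  omega

/-- `p`-rank bounds pass to subgroups of subgroups. -/
theorem pRankLE_of_le {G : Type*} [Group G] (M H : Subgroup G) (hHM : H ≤ M) (p k : ℕ)
    (hr : Cfsg.PRankLE p k M) (P : Subgroup H) : Cfsg.PRankLE p k P := by
  intro A hAc hAp
  have key := (Cfsg.Agent.Lib.Helper24.pRankLE_subgroup_iff p k M).mp hr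
    ((A.map (P : Subgroup H).subtype).map H.subtype) ?_ ?_ ?_
  · rwa [Subgroup.card_map_of_injective H.subtype_injective,
      Subgroup.card_map_of_injective (Subgroup.subtype_injective _)] at key
  · rintro _ ⟨_, ⟨a, ha, rfl⟩, rfl⟩
    exact hHM (a : H).2
  · rintro _ ⟨_, ⟨a, ha, rfl⟩, rfl⟩ _ ⟨_, ⟨b, hb, rfl⟩, rfl⟩
    have h2 := (isMulCommutative_iff.mp hAc) ⟨a, ha⟩ ⟨b, hb⟩
    have h3 := congrArg (fun x : A => (((x : P) : H) : G)) h2
    simpa using h3
  · rintro _ ⟨_, ⟨a, ha, rfl⟩, rfl⟩
    have h2 := hAp a ha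
    have h3 := congrArg (fun x : P => ((x : H) : G)) h2
    simpa using h3

/-- Sylow `p`-subgroups of a subgroup `H ≤ M` are cyclic when `M` has `p`-rank at most one and
`p` is odd. -/
theorem isCyclic_sylow_of_rank_one {G : Type*} [Group G] [Finite G] (M H : Subgroup G)
    (hHM : H ≤ M) (p : ℕ) [Fact p.Prime] (hp2 : p ≠ 2) (hr : Cfsg.PRankLE p 1 M)
    (P : Sylow p H) : IsCyclic ↥(P : Subgroup H) :=
  isCyclic_of_pRankLE_one p hp2 P.isPGroup' (pRankLE_of_le M H hHM p 1 hr P)

/-- A nilpotent subgroup `H ≤ M` of a group of odd order, with `M` of `p`-rank at most one for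
all primes `p` dividing `|H|`, is cyclic. -/
theorem isCyclic_of_nilpotent_rank_one {G : Type*} [Group G] [Finite G]
    (hodd : Odd (Nat.card G)) (M H : Subgroup G) (hHM : H ≤ M) (hnil : Group.IsNilpotent H)
    (hr : ∀ p : ℕ, p.Prime → p ∣ Nat.card H → Cfsg.PRankLE p 1 M) : IsCyclic H := by
  haveI : IsZGroup H := by
    refine ⟨fun p hp P => ?_⟩
    haveI : Fact p.Prime := ⟨hp⟩
    by_cases hdvd : p ∣ Nat.card H
    · have hp2 : p ≠ 2 := by
        rintro rfl
        have h2 : 2 ∣ Nat.card G := hdvd.trans (Subgroup.card_subgroup_dvd_card H)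
        exact (Nat.not_even_iff_odd.mpr hodd) (even_iff_two_dvd.mpr h2)
      exact isCyclic_sylow_of_rank_one M H hHM p hp2 (hr p hp hdvd) P
    · have h1 : Nat.card (P : Subgroup H) = 1 := by
        obtain ⟨n, hn⟩ := IsPGroup.iff_card.mp P.isPGroup'
        have hdvd' : Nat.card (P : Subgroup H) ∣ Nat.card H := Subgroup.card_subgroup_dvd_card _
        rcases n with _ | n
        · simpa using hn
        · exfalso
          apply hdvd
          rw [hn] at hdvd'
          exact (dvd_pow_self p (Nat.succ_ne_zero n)).trans hdvd'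
      haveI : Subsingleton (P : Subgroup H) := (Nat.card_eq_one_iff_unique.mp h1).1
      infer_instance
  infer_instance

/-- Coprime image: a subgroup `L` of the normalizer of `H` whose order is coprime to the index
of `H` in its normalizer lies in `H`. -/
theorem le_of_coprime_relIndex {G : Type*} [Group G] [Finite G] (H L : Subgroup G)
    (hL : L ≤ Subgroup.normalizer (H : Set G))
    (hcop : (Nat.card L).Coprime (H.relIndex (Subgroup.normalizer (H : Set G)))) : L ≤ H := by
  haveI : (H.subgroupOf (Subgroup.normalizer (H : Set G))).Normal := Subgroup.normal_in_normalizer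
  have h1 : Nat.card ((L.subgroupOf (Subgroup.normalizer (H : Set G))).map
      (QuotientGroup.mk' (H.subgroupOf (Subgroup.normalizer (H : Set G))))) ∣ Nat.card L := by
    have := Subgroup.card_map_dvd (H := L.subgroupOf (Subgroup.normalizer (H : Set G)))
      (QuotientGroup.mk' (H.subgroupOf (Subgroup.normalizer (H : Set G))))
    rwa [Nat.card_congr (Subgroup.subgroupOfEquivOfLe hL).toEquiv] at this
  have h2 : Nat.card ((L.subgroupOf (Subgroup.normalizer (H : Set G))).map
      (QuotientGroup.mk' (H.subgroupOf (Subgroup.normalizer (H : Set G))))) ∣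
      H.relIndex (Subgroup.normalizer (H : Set G)) := by
    have := Subgroup.card_subgroup_dvd_card ((L.subgroupOf (Subgroup.normalizer (H : Set G))).map
      (QuotientGroup.mk' (H.subgroupOf (Subgroup.normalizer (H : Set G)))))
    rwa [← Subgroup.index_eq_card] at this
  have h3 := (Nat.Coprime.coprime_dvd_left h1 hcop).eq_one_of_dvd h2
  have h4 := Subgroup.card_eq_one.mp h3
  intro x hx
  have hxN : x ∈ Subgroup.normalizer (H : Set G) := hL hx
  have h5 : QuotientGroup.mk' (H.subgroupOf (Subgroup.normalizer (H : Set G))) ⟨x, hxN⟩ ∈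
      (L.subgroupOf (Subgroup.normalizer (H : Set G))).map
        (QuotientGroup.mk' (H.subgroupOf (Subgroup.normalizer (H : Set G)))) :=
    ⟨⟨x, hxN⟩, Subgroup.mem_subgroupOf.mpr hx, rfl⟩
  rw [h4, Subgroup.mem_bot] at h5
  have h6 : (⟨x, hxN⟩ : Subgroup.normalizer (H : Set G)) ∈
      H.subgroupOf (Subgroup.normalizer (H : Set G)) := (QuotientGroup.eq_one_iff _).mp h5
  exact Subgroup.mem_subgroupOf.mp h6

/-- In a finite group, `g H g⁻¹ ≤ H` puts `g` in the normalizer of `H`. -/
theorem mem_normalizer_of_map_le {G : Type*} [Group G] [Finite G] (H : Subgroup G) (g : G)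
    (h : H.map (MulAut.conj g).toMonoidHom ≤ H) : g ∈ Subgroup.normalizer (H : Set G) := by
  have heq : H.map (MulAut.conj g).toMonoidHom = H :=
    Subgroup.eq_of_le_of_card_ge h
      (by rw [Subgroup.card_map_of_injective (MulAut.conj g).injective])
  rw [Subgroup.mem_normalizer_iff]
  intro x
  constructor
  · intro hx
    exact h ⟨x, hx, rfl⟩
  · intro hx
    have hx' : g * x * g⁻¹ ∈ H.map (MulAut.conj g).toMonoidHom := by rw [heq]; exact hx
    obtain ⟨y, hy, hyx⟩ := hx'
    have e : g * y * g⁻¹ = g * x * g⁻¹ := hyx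
    have : y = x := mul_left_cancel (mul_right_cancel e)
    rw [← this]
    exact hy

/-- A Hall subgroup of a finite nilpotent group is the only subgroup of its order. -/
theorem hall_unique_of_nilpotent {N : Type*} [Group N] [Finite N] [Group.IsNilpotent N]
    (H H' : Subgroup N) (hcop : (Nat.card H).Coprime H.index)
    (hcard : Nat.card H' = Nat.card H) : H' = H := by
  have hnc : NormalizerCondition N := Group.normalizerCondition_of_isNilpotent
  have hcopK : (Nat.card H).Coprime (H.relIndex (Subgroup.normalizer (H : Set N))) :=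
    Nat.Coprime.coprime_dvd_right (Subgroup.relIndex_dvd_index_of_le Subgroup.le_normalizer) hcop
  have hnorm : Subgroup.normalizer (H : Set N) = ⊤ := by
    by_contra hne
    have hlt := hnc _ (lt_top_iff_ne_top.mpr hne)
    obtain ⟨g, hg, hgn⟩ := SetLike.exists_of_lt hlt
    apply hgn
    apply mem_normalizer_of_map_le
    apply le_of_coprime_relIndex
    · rintro _ ⟨x, hx, rfl⟩
      exact (Subgroup.mem_normalizer_iff.mp hg x).mp (Subgroup.le_normalizer hx)
    · rw [Subgroup.card_map_of_injective (MulAut.conj g).injective]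
      exact hcopK
  have hle : H' ≤ H := by
    apply le_of_coprime_relIndex
    · rw [hnorm]
      exact le_top
    · rw [hcard]
      exact hcopK
  exact Subgroup.eq_of_le_of_card_ge hle (by rw [hcard])

/-- Subgroups of nilpotent subgroups are nilpotent. -/
theorem isNilpotent_of_le {G : Type*} [Group G] {H K : Subgroup G} (hHK : H ≤ K)
    (hK : Group.IsNilpotent K) : Group.IsNilpotent H := by
  haveI := hK
  have h1 : Group.IsNilpotent ↥(H.subgroupOf K) := inferInstance
  haveI := h1
  exact Group.nilpotent_of_mulEquiv (Subgroup.subgroupOfEquivOfLe hHK)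

end Cfsg.Agent.Lib.Helper75.BG
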