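import Mathlib
import Cfsg.Prelude.Def_Characters
import Cfsg.Prelude.Def_Solvable
import Cfsg.Agent.Lib.Helper3.CharValues
import Cfsg.Agent.Lib.Helper3.BrauerIdeal
import Cfsg.Agent.Lib.Helper15.LinChar
import Cfsg.Agent.Lib.Helper75.CharDecomp
import Cfsg.Agent.Lib.Helper75.CharInd
import Cfsg.Agent.Lib.Helper75.Clifford
import Cfsg.Agent.Lib.Helper75.CliffordCorr
import Cfsg.Agent.Lib.Helper75.CliffordCorr2
import Cfsg.Agent.Lib.Helper75.GaloisChar
import Cfsg.Agent.Lib.Helper80.CharOps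
import Cfsg.Agent.Lib.Helper80.CharKer
import Cfsg.Agent.Lib.Helper80.OneDegree
import Cfsg.Agent.Lib.Helper80.PrimeCodeg
import Cfsg.Agent.Lib.Helper82.CliffordInd
import Cfsg.Agent.Lib.Helper82.AbelianSylow

set_option autoImplicit false
set_option linter.unusedSectionVars false
set_option linter.style.haveILetI false

/-!
# Products of Galois conjugate characters (S4843)

If `χ` is a faithful irreducible character and `g ↦ χ g * χ (g ^ k)` is irreducible
(`k` prime to `|G|`), then every normal nilpotent subgroup is central.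
-/

namespace Cfsg.Agent.Lib.Helper75.GalProd

open Cfsg.Agent.Lib
open scoped ComplexConjugate

universe u

section General

variable {G : Type u} [Group G] [Fintype G]

/-- the inner product of two characters, through multiplicities -/
theorem classInner_eq_sum_mult [Fintype (Cfsg.IrrCharacter G)] {X Y : G → ℂ}
    (hX : Cfsg.IsCharacter G X) (hY : Cfsg.IsCharacter G Y) :
    ∃ m m' : Cfsg.IrrCharacter G → ℕ,
      (∀ ψ : Cfsg.IrrCharacter G, Cfsg.classInner X (ψ : G → ℂ) = m ψ) ∧
      (∀ ψ : Cfsg.IrrCharacter G, Cfsg.classInner Y (ψ : G → ℂ) = m' ψ) ∧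
      Cfsg.classInner X Y = ((∑ ψ : Cfsg.IrrCharacter G, m ψ * m' ψ : ℕ) : ℂ) := by
  obtain ⟨m, hm, hX'⟩ := Helper80.character_expansion hX
  obtain ⟨m', hm', hY'⟩ := Helper80.character_expansion hY
  refine ⟨m, m', hm, hm', ?_⟩
  conv_lhs => rw [hX', hY']
  rw [Helper80.classInner_sum_irr]
  push_cast
  refine Finset.sum_congr rfl (fun ψ _ => ?_)
  simp

/-- one common irreducible constituent bounds the inner product from below -/
theorem mult_mul_le {X Y α : G → ℂ}
    (hX : Cfsg.IsCharacter G X) (hY : Cfsg.IsCharacter G Y) (hα : Cfsg.IsIrrCharacter G α)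
    {a b n : ℕ} (ha : Cfsg.classInner X α = a) (hb : Cfsg.classInner Y α = b)
    (hn : Cfsg.classInner X Y = n) : a * b ≤ n := by
  classical
  haveI : Fintype (Cfsg.IrrCharacter G) := Fintype.ofFinite _
  obtain ⟨m, m', hm, hm', hsum⟩ := classInner_eq_sum_mult hX hY
  have h1 : m ⟨α, hα⟩ = a := by
    have := hm ⟨α, hα⟩
    rw [ha] at this
    exact_mod_cast this.symm
  have h2 : m' ⟨α, hα⟩ = b := by
    have := hm' ⟨α, hα⟩
    rw [hb] at this
    exact_mod_cast this.symm
  have h3 : n = ∑ ψ : Cfsg.IrrCharacter G, m ψ * m' ψ := by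
    rw [hn] at hsum
    exact_mod_cast hsum
  rw [h3, ← h1, ← h2]
  exact Finset.single_le_sum (f := fun ψ => m ψ * m' ψ) (fun _ _ => Nat.zero_le _)
    (Finset.mem_univ (⟨α, hα⟩ : Cfsg.IrrCharacter G))

/-- two distinct common irreducible constituents -/
theorem mult_mul_add_le {X Y α β : G → ℂ}
    (hX : Cfsg.IsCharacter G X) (hY : Cfsg.IsCharacter G Y) (hα : Cfsg.IsIrrCharacter G α)
    (hβ : Cfsg.IsIrrCharacter G β) (hαβ : α ≠ β)
    {a b c d n : ℕ} (ha : Cfsg.classInner X α = a) (hb : Cfsg.classInner Y α = b)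
    (hc : Cfsg.classInner X β = c) (hd : Cfsg.classInner Y β = d)
    (hn : Cfsg.classInner X Y = n) : a * b + c * d ≤ n := by
  classical
  haveI : Fintype (Cfsg.IrrCharacter G) := Fintype.ofFinite _
  obtain ⟨m, m', hm, hm', hsum⟩ := classInner_eq_sum_mult hX hY
  have h1 : m ⟨α, hα⟩ = a := by
    have := hm ⟨α, hα⟩
    rw [ha] at this
    exact_mod_cast this.symm
  have h2 : m' ⟨α, hα⟩ = b := by
    have := hm' ⟨α, hα⟩
    rw [hb] at this
    exact_mod_cast this.symm
  have h1' : m ⟨β, hβ⟩ = c := by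
    have := hm ⟨β, hβ⟩
    rw [hc] at this
    exact_mod_cast this.symm
  have h2' : m' ⟨β, hβ⟩ = d := by
    have := hm' ⟨β, hβ⟩
    rw [hd] at this
    exact_mod_cast this.symm
  have h3 : n = ∑ ψ : Cfsg.IrrCharacter G, m ψ * m' ψ := by
    rw [hn] at hsum
    exact_mod_cast hsum
  have hne : (⟨α, hα⟩ : Cfsg.IrrCharacter G) ≠ ⟨β, hβ⟩ := by
    intro h
    exact hαβ (congrArg Subtype.val h)
  rw [h3, ← h1, ← h2, ← h1', ← h2', ← Finset.sum_pair (f := fun ψ => m ψ * m' ψ) hne]
  exact Finset.sum_le_sum_of_subset (Finset.subset_univ _)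

/-- the norm of the product `χ · χ^(k)` -/
theorem classInner_prod_self (χ : G → ℂ) (k : ℕ) :
    Cfsg.classInner (fun g => χ g * χ (g ^ k)) (fun g => χ g * χ (g ^ k)) =
      Cfsg.classInner (fun g => χ g * conj (χ g)) (fun g => χ (g ^ k) * conj (χ (g ^ k))) := by
  unfold Cfsg.classInner
  congr 1
  refine Finset.sum_congr rfl (fun g _ => ?_)
  simp only [map_mul, Complex.conj_conj]
  ring

theorem isCharacter_normSq {H : Type u} [Group H] [Finite H] {χ : H → ℂ}
    (hχ : Cfsg.IsCharacter H χ) : Cfsg.IsCharacter H (fun g => χ g * conj (χ g)) :=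
  Helper80.isCharacter_mul hχ (Helper80.isCharacter_conj hχ)

/-- the multiplicity of the trivial character in `χ χ̄` is the norm of `χ` -/
theorem classInner_normSq_one {H : Type u} [Group H] [Fintype H] (χ : H → ℂ) :
    Cfsg.classInner (fun g => χ g * conj (χ g)) (fun _ => (1 : ℂ)) = Cfsg.classInner χ χ := by
  unfold Cfsg.classInner
  congr 1
  refine Finset.sum_congr rfl (fun g _ => ?_)
  simp

/-- a common nontrivial irreducible constituent of `χ χ̄` and of its Galois conjugate makes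
the product `χ · χ^(k)` reducible -/
theorem not_irr_of_common {χ : G → ℂ} (hχ : Cfsg.IsIrrCharacter G χ) (k : ℕ)
    (hk : Nat.Coprime k (Nat.card G)) {ω : G → ℂ} (hω : Cfsg.IsIrrCharacter G ω)
    (hω1 : ω ≠ fun _ => 1)
    (h1 : Cfsg.classInner (fun g => χ g * conj (χ g)) ω ≠ 0)
    (h2 : Cfsg.classInner (fun g => χ (g ^ k) * conj (χ (g ^ k))) ω ≠ 0) :
    ¬ Cfsg.IsIrrCharacter G (fun g => χ g * χ (g ^ k)) := by
  intro hirr
  have hχc := Helper3.isCharacter_of_irr hχ
  have hχk := isIrrCharacter_pow hχ k hk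
  have hχkc := Helper3.isCharacter_of_irr hχk
  have hX : Cfsg.IsCharacter G (fun g => χ g * conj (χ g)) := isCharacter_normSq hχc
  have hY : Cfsg.IsCharacter G (fun g => χ (g ^ k) * conj (χ (g ^ k))) :=
    isCharacter_normSq hχkc
  have hone := Helper80.isIrrCharacter_one (G := G)
  have hX1 : Cfsg.classInner (fun g => χ g * conj (χ g)) (fun _ => (1 : ℂ)) = ((1 : ℕ) : ℂ) := by
    rw [classInner_normSq_one, Helper3.classInner_irr_self hχ]
    simp
  have hY1 : Cfsg.classInner (fun g => χ (g ^ k) * conj (χ (g ^ k))) (fun _ => (1 : ℂ)) =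
      ((1 : ℕ) : ℂ) := by
    rw [classInner_normSq_one (fun g => χ (g ^ k)), Helper3.classInner_irr_self hχk]
    simp
  obtain ⟨c, hc⟩ := classInner_char_irr_nat hX hω
  obtain ⟨d, hd⟩ := classInner_char_irr_nat hY hω
  have hc0 : c ≠ 0 := by
    intro h0
    apply h1
    rw [hc, h0]
    simp
  have hd0 : d ≠ 0 := by
    intro h0
    apply h2
    rw [hd, h0]
    simp
  have hn : Cfsg.classInner (fun g => χ g * conj (χ g))
      (fun g => χ (g ^ k) * conj (χ (g ^ k))) = ((1 : ℕ) : ℂ) := by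
    rw [← classInner_prod_self, Helper3.classInner_irr_self hirr]
    simp
  have hle := mult_mul_add_le hX hY hone hω (Ne.symm hω1) hX1 hY1 hc hd hn
  have : 1 ≤ c * d := Nat.mul_pos (Nat.pos_of_ne_zero hc0) (Nat.pos_of_ne_zero hd0)
  omega

end General

section Central

variable {G : Type u} [Group G]

/-- a central element acts on an irreducible character through `χ z / χ 1` -/
theorem central_mul {χ : G → ℂ} (hχ : Cfsg.IsIrrCharacter G χ) {z : G}
    (hz : z ∈ Subgroup.center G) (g : G) : χ (z * g) = χ z / χ 1 * χ g := by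
  obtain ⟨ω, -, h⟩ := Helper80.central_char_mul hχ hz
  have h1 := h 1
  rw [mul_one] at h1
  have hne := Helper80.char_one_ne_zero hχ
  rw [h g, h1]
  field_simp

/-- the central character as a homomorphism -/
noncomputable def centHom {χ : G → ℂ} (hχ : Cfsg.IsIrrCharacter G χ) :
    Subgroup.center G →* ℂˣ :=
  MonoidHom.toHomUnits
    { toFun := fun z => χ (z : G) / χ 1
      map_one' := by
        show χ ((1 : Subgroup.center G) : G) / χ 1 = 1
        rw [Subgroup.coe_one]
        exact div_self (Helper80.char_one_ne_zero hχ)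
      map_mul' := fun z z' => by
        show χ ((z : G) * (z' : G)) / χ 1 = χ (z : G) / χ 1 * (χ (z' : G) / χ 1)
        rw [central_mul hχ z.2 (z' : G)]
        ring }

theorem centHom_apply {χ : G → ℂ} (hχ : Cfsg.IsIrrCharacter G χ) (z : Subgroup.center G) :
    ((centHom hχ z : ℂˣ) : ℂ) = χ (z : G) / χ 1 := rfl

theorem centHom_injective {χ : G → ℂ} (hχ : Cfsg.IsIrrCharacter G χ)
    (hfaith : ∀ g : G, χ g = χ 1 → g = 1) : Function.Injective (centHom hχ) := by
  rw [injective_iff_map_eq_one]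
  intro z hz
  have h1 : ((centHom hχ z : ℂˣ) : ℂ) = 1 := by rw [hz]; rfl
  rw [centHom_apply] at h1
  have h2 : χ (z : G) = χ 1 := (div_eq_one_iff_eq (Helper80.char_one_ne_zero hχ)).mp h1
  exact Subtype.ext (hfaith _ h2)

theorem comm_mul {m a b : G} (hb : b * m * b⁻¹ * m⁻¹ ∈ Subgroup.center G) :
    a * b * m * (a * b)⁻¹ * m⁻¹ = (a * m * a⁻¹ * m⁻¹) * (b * m * b⁻¹ * m⁻¹) := by
  have h1 := Subgroup.mem_center_iff.mp hb a
  have h2 := Subgroup.mem_center_iff.mp hb (a * m * a⁻¹ * m⁻¹)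
  calc a * b * m * (a * b)⁻¹ * m⁻¹ = (a * (b * m * b⁻¹ * m⁻¹)) * (m * a⁻¹ * m⁻¹) := by group
    _ = ((b * m * b⁻¹ * m⁻¹) * a) * (m * a⁻¹ * m⁻¹) := by rw [h1]
    _ = (b * m * b⁻¹ * m⁻¹) * (a * m * a⁻¹ * m⁻¹) := by group
    _ = (a * m * a⁻¹ * m⁻¹) * (b * m * b⁻¹ * m⁻¹) := h2.symm

theorem comm_inv {m a : G} (ha : a * m * a⁻¹ * m⁻¹ ∈ Subgroup.center G) :
    a⁻¹ * m * a⁻¹⁻¹ * m⁻¹ = (a * m * a⁻¹ * m⁻¹)⁻¹ := by
  have h := Subgroup.mem_center_iff.mp (inv_mem ha) a⁻¹
  calc a⁻¹ * m * a⁻¹⁻¹ * m⁻¹ = (a⁻¹ * (a * m * a⁻¹ * m⁻¹)⁻¹) * a := by group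
    _ = ((a * m * a⁻¹ * m⁻¹)⁻¹ * a⁻¹) * a := by rw [h]
    _ = (a * m * a⁻¹ * m⁻¹)⁻¹ := by group

/-- the elements whose commutator with `m` is central -/
def commSub (m : G) : Subgroup G where
  carrier := {g | g * m * g⁻¹ * m⁻¹ ∈ Subgroup.center G}
  one_mem' := by
    show (1 : G) * m * (1 : G)⁻¹ * m⁻¹ ∈ Subgroup.center G
    have : (1 : G) * m * (1 : G)⁻¹ * m⁻¹ = 1 := by group
    rw [this]
    exact Subgroup.one_mem _
  mul_mem' := by
    intro a b (ha : a * m * a⁻¹ * m⁻¹ ∈ Subgroup.center G)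
      (hb : b * m * b⁻¹ * m⁻¹ ∈ Subgroup.center G)
    show a * b * m * (a * b)⁻¹ * m⁻¹ ∈ Subgroup.center G
    rw [comm_mul hb]
    exact Subgroup.mul_mem _ ha hb
  inv_mem' := by
    intro a ha
    have ha : a * m * a⁻¹ * m⁻¹ ∈ Subgroup.center G := ha
    show a⁻¹ * m * a⁻¹⁻¹ * m⁻¹ ∈ Subgroup.center G
    rw [comm_inv ha]
    exact Subgroup.inv_mem _ ha

theorem mem_commSub (m g : G) : g ∈ commSub m ↔ g * m * g⁻¹ * m⁻¹ ∈ Subgroup.center G :=
  Iff.rfl

/-- the commutator with `m` as a homomorphism into the centre -/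
def commHom (m : G) : commSub m →* Subgroup.center G :=
  MonoidHom.mk' (fun g => ⟨(g : G) * m * (g : G)⁻¹ * m⁻¹, g.2⟩)
    (fun _ b => Subtype.ext (comm_mul b.2))

theorem commHom_apply (m : G) (g : commSub m) :
    ((commHom m g : Subgroup.center G) : G) = (g : G) * m * (g : G)⁻¹ * m⁻¹ := rfl

/-- a linear character trivial where `f` does not vanish is a constituent of `f f̄` -/
theorem classInner_lin_ne_zero {T : Type u} [Group T] [Fintype T] (κf f : T → ℂ)
    (hf1 : f 1 ≠ 0) (h : ∀ t, f t * κf t = f t) :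
    Cfsg.classInner κf (fun t => f t * conj (f t)) ≠ 0 := by
  unfold Cfsg.classInner
  have hsum : ∑ t : T, κf t * conj (f t * conj (f t)) =
      ((∑ t : T, Complex.normSq (f t) : ℝ) : ℂ) := by
    rw [Complex.ofReal_sum]
    refine Finset.sum_congr rfl (fun t _ => ?_)
    rw [map_mul, Complex.conj_conj]
    calc κf t * (conj (f t) * f t) = (f t * κf t) * conj (f t) := by ring
      _ = f t * conj (f t) := by rw [h t]
      _ = ((Complex.normSq (f t) : ℝ) : ℂ) := Complex.mul_conj (f t)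
  rw [hsum]
  have hpos : 0 < ∑ t : T, Complex.normSq (f t) := by
    have h1 : Complex.normSq (f 1) ≤ ∑ t : T, Complex.normSq (f t) :=
      Finset.single_le_sum (f := fun t => Complex.normSq (f t))
        (fun t _ => Complex.normSq_nonneg _) (Finset.mem_univ (1 : T))
    have h2 : 0 < Complex.normSq (f 1) := Complex.normSq_pos.mpr hf1
    linarith
  apply mul_ne_zero
  · exact inv_ne_zero (by exact_mod_cast (Nat.card_pos (α := T)).ne')
  · exact_mod_cast hpos.ne'

end Central

section ClassTwo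

variable {G : Type u} [Group G] [Fintype G]

/-- **Step B**: a normal subgroup `M` with `[M, M] ≤ Z(G)` and `Z(M) ≤ Z(G)` is central. -/
theorem le_center_of_class_two {χ : G → ℂ} (hχ : Cfsg.IsIrrCharacter G χ)
    (hfaith : ∀ g : G, χ g = χ 1 → g = 1) (k : ℕ) (hk : Nat.Coprime k (Nat.card G))
    (hirr : Cfsg.IsIrrCharacter G (fun g => χ g * χ (g ^ k)))
    (M : Subgroup G) [hM : M.Normal]
    (hM2 : ∀ x ∈ M, ∀ y ∈ M, x * y * x⁻¹ * y⁻¹ ∈ Subgroup.center G)
    (hZM : ∀ y ∈ M, (∀ x ∈ M, x * y = y * x) → y ∈ Subgroup.center G) :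
    M ≤ Subgroup.center G := by
  classical
  intro m hm
  by_contra hmc
  have hex : ∃ x0 ∈ M, x0 * m ≠ m * x0 := by
    by_contra hcon
    push Not at hcon
    exact hmc (hZM m hm hcon)
  obtain ⟨x0, hx0, hx0m⟩ := hex
  have hMT : M ≤ commSub m := fun x hx => hM2 x hx m hm
  haveI : Fintype M := Fintype.ofFinite _
  haveI : Fintype (commSub m) := Fintype.ofFinite _
  set κ : commSub m →* ℂˣ := (centHom hχ).comp (commHom m) with hκdef
  set κf : commSub m → ℂ := fun t => ((κ t : ℂˣ) : ℂ) with hκf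
  have hκirr : Cfsg.IsIrrCharacter (commSub m) κf := Helper80.isIrrCharacter_of_hom κ
  set lam : M → ℂ := fun x => κf ⟨x, hMT x.2⟩ with hlam
  have hlamirr : Cfsg.IsIrrCharacter M lam :=
    Helper80.isIrrCharacter_of_hom (κ.comp (Subgroup.inclusion hMT))
  have hκval : ∀ t : commSub m, κf t = χ ((t : G) * m * (t : G)⁻¹ * m⁻¹) / χ 1 :=
    fun t => rfl
  have hne1 := Helper80.char_one_ne_zero hχ
  have hcl := Helper3.isClassFunction_of_isCharacter (Helper3.isCharacter_of_irr hχ)
  have hinj := centHom_injective hχ hfaith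
  -- (ii)
  have hii : ∀ t : commSub m, χ (t : G) * κf t = χ (t : G) := by
    intro t
    have hz : (t : G) * m * (t : G)⁻¹ * m⁻¹ ∈ Subgroup.center G := t.2
    have hconj : m⁻¹ * (t : G) * m⁻¹⁻¹ = ((t : G) * m * (t : G)⁻¹ * m⁻¹) * (t : G) := by
      calc m⁻¹ * (t : G) * m⁻¹⁻¹
          = (m⁻¹ * ((t : G) * m * (t : G)⁻¹ * m⁻¹)) * (m * (t : G)) := by group
        _ = (((t : G) * m * (t : G)⁻¹ * m⁻¹) * m⁻¹) * (m * (t : G)) := by
            rw [Subgroup.mem_center_iff.mp hz m⁻¹]
        _ = ((t : G) * m * (t : G)⁻¹ * m⁻¹) * (t : G) := by group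
    have h1 : χ (t : G) = χ (((t : G) * m * (t : G)⁻¹ * m⁻¹) * (t : G)) := by
      rw [← hconj]
      exact (hcl (t : G) m⁻¹).symm
    rw [central_mul hχ hz] at h1
    rw [hκval, mul_comm]
    exact h1.symm
  -- (iii)
  have hiii : ∀ t : commSub m, χ ((t : G) ^ k) * κf t = χ ((t : G) ^ k) := by
    intro t
    by_cases h0 : χ ((t : G) ^ k) = 0
    · rw [h0, zero_mul]
    · have h1 : χ ((t : G) ^ k) * κf (t ^ k) = χ ((t : G) ^ k) := hii (t ^ k)
      have h2 : κf (t ^ k) = 1 := mul_left_cancel₀ h0 (h1.trans (mul_one _).symm)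
      have h4 : κ t ^ k = 1 := by
        apply Units.ext
        rw [← map_pow]
        exact h2
      have h5 : κ t ^ Nat.card G = 1 := by
        rw [← map_pow]
        have : t ^ Nat.card G = 1 := by
          apply Subtype.ext
          rw [Subgroup.coe_pow, Subgroup.coe_one]
          exact pow_card_eq_one'
        rw [this, map_one]
      have h6 : κ t = 1 := by
        have := pow_gcd_eq_one.mpr ⟨h4, h5⟩
        rw [Nat.Coprime.gcd_eq_one hk, pow_one] at this
        exact this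
      show χ ((t : G) ^ k) * ((κ t : ℂˣ) : ℂ) = χ ((t : G) ^ k)
      rw [h6]
      simp
  -- the inertia group
  have hT : ∀ g : G, g ∈ commSub m ↔ conjChar M lam g = lam := by
    intro g
    constructor
    · intro hg
      funext x
      have hmem : g⁻¹ * (x : G) * g ∈ M := by
        have := hM.conj_mem x x.2 g⁻¹
        rwa [inv_inv] at this
      rw [conjChar_val M lam g x hmem]
      show ((κ ⟨g⁻¹ * (x : G) * g, hMT hmem⟩ : ℂˣ) : ℂ) = ((κ ⟨x, hMT x.2⟩ : ℂˣ) : ℂ)
      have e : (⟨g⁻¹ * (x : G) * g, hMT hmem⟩ : commSub m) =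
          (⟨g, hg⟩ : commSub m)⁻¹ * ⟨x, hMT x.2⟩ * ⟨g, hg⟩ := Subtype.ext rfl
      rw [e, map_mul, map_mul, map_inv, mul_right_comm, inv_mul_cancel, one_mul]
    · intro hg
      rw [mem_commSub]
      have hm' : g * m * g⁻¹ ∈ M := hM.conj_mem m hm g
      have hy' : m⁻¹ * (g * m * g⁻¹) ∈ M := M.mul_mem (M.inv_mem hm) hm'
      have hcomm : ∀ x ∈ M, x * (m⁻¹ * (g * m * g⁻¹)) = (m⁻¹ * (g * m * g⁻¹)) * x := by
        intro x hx
        have hxi : x⁻¹ ∈ M := M.inv_mem hx
        have hmem : g⁻¹ * x⁻¹ * g ∈ M := by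
          have := hM.conj_mem x⁻¹ hxi g⁻¹
          rwa [inv_inv] at this
        have h1 := congrFun hg ⟨x⁻¹, hxi⟩
        rw [conjChar_val M lam g ⟨x⁻¹, hxi⟩ hmem] at h1
        have h2 : κ ⟨g⁻¹ * x⁻¹ * g, hMT hmem⟩ = κ ⟨x⁻¹, hMT hxi⟩ := Units.ext h1
        have h3 : commHom m ⟨g⁻¹ * x⁻¹ * g, hMT hmem⟩ = commHom m ⟨x⁻¹, hMT hxi⟩ := hinj h2
        have h4 : (g⁻¹ * x⁻¹ * g) * m * (g⁻¹ * x⁻¹ * g)⁻¹ * m⁻¹ = x⁻¹ * m * x⁻¹⁻¹ * m⁻¹ :=
          congrArg Subtype.val h3
        have hw : x⁻¹ * (g * m * g⁻¹) * x⁻¹⁻¹ * (g * m * g⁻¹)⁻¹ ∈ Subgroup.center G :=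
          hM2 x⁻¹ hxi _ hm'
        have h5 : (g⁻¹ * x⁻¹ * g) * m * (g⁻¹ * x⁻¹ * g)⁻¹ * m⁻¹ =
            x⁻¹ * (g * m * g⁻¹) * x⁻¹⁻¹ * (g * m * g⁻¹)⁻¹ := by
          calc (g⁻¹ * x⁻¹ * g) * m * (g⁻¹ * x⁻¹ * g)⁻¹ * m⁻¹
              = (g⁻¹ * (x⁻¹ * (g * m * g⁻¹) * x⁻¹⁻¹ * (g * m * g⁻¹)⁻¹)) * g := by group
            _ = ((x⁻¹ * (g * m * g⁻¹) * x⁻¹⁻¹ * (g * m * g⁻¹)⁻¹) * g⁻¹) * g := by
                rw [Subgroup.mem_center_iff.mp hw g⁻¹]
            _ = x⁻¹ * (g * m * g⁻¹) * x⁻¹⁻¹ * (g * m * g⁻¹)⁻¹ := by group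
        rw [h5] at h4
        have h6 : (g * m * g⁻¹) * x * (g * m * g⁻¹)⁻¹ = m * x * m⁻¹ := by
          calc (g * m * g⁻¹) * x * (g * m * g⁻¹)⁻¹
              = x * (x⁻¹ * (g * m * g⁻¹) * x⁻¹⁻¹ * (g * m * g⁻¹)⁻¹) := by group
            _ = x * (x⁻¹ * m * x⁻¹⁻¹ * m⁻¹) := by rw [h4]
            _ = m * x * m⁻¹ := by group
        calc x * (m⁻¹ * (g * m * g⁻¹))
            = m⁻¹ * (m * x * m⁻¹) * (g * m * g⁻¹) := by group
          _ = m⁻¹ * ((g * m * g⁻¹) * x * (g * m * g⁻¹)⁻¹) * (g * m * g⁻¹) := by rw [h6]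
          _ = (m⁻¹ * (g * m * g⁻¹)) * x := by group
      have hyc : m⁻¹ * (g * m * g⁻¹) ∈ Subgroup.center G := hZM _ hy' hcomm
      have e : g * m * g⁻¹ * m⁻¹ = m * (m⁻¹ * (g * m * g⁻¹)) * m⁻¹ := by group
      rw [e]
      exact (inferInstance : (Subgroup.center G).Normal).conj_mem _ hyc m
  have hlamlam : Cfsg.classInner (fun n : M => κf ⟨n, hMT n.2⟩) lam ≠ 0 := by
    show Cfsg.classInner lam lam ≠ 0
    rw [Helper3.classInner_irr_self hlamirr]
    exact one_ne_zero
  have hω : Cfsg.IsIrrCharacter G (Cfsg.indFun (commSub m) κf) :=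
    Helper82.clifford_induced_irr M (commSub m) hMT hlamirr hT hκirr hlamlam
  -- ω is not the trivial character
  have hκne : κf ≠ fun _ => 1 := by
    intro h
    have h1 := congrFun h ⟨x0, hMT hx0⟩
    rw [hκval] at h1
    have h2 : χ (x0 * m * x0⁻¹ * m⁻¹) = χ 1 := (div_eq_one_iff_eq hne1).mp h1
    have h3 := hfaith _ h2
    apply hx0m
    calc x0 * m = (x0 * m * x0⁻¹ * m⁻¹) * (m * x0) := by group
      _ = m * x0 := by rw [h3, one_mul]
  have hω1 : Cfsg.indFun (commSub m) κf ≠ fun _ => 1 := by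
    intro h
    have hfr := frobenius_reciprocity (commSub m) κf
      (Helper3.isClassFunction_of_isCharacter (Helper80.isCharacter_one (G := G)))
    rw [h, Helper3.classInner_irr_self (Helper80.isIrrCharacter_one (G := G))] at hfr
    have h0 : Cfsg.classInner κf (fun _ : commSub m => (1 : ℂ)) = 0 :=
      Helper3.classInner_irr_ne hκirr (Helper80.isIrrCharacter_one (G := commSub m)) hκne
    rw [h0] at hfr
    exact one_ne_zero hfr
  -- constituents
  have hχc := Helper3.isCharacter_of_irr hχ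
  have hχkc := isCharacter_pow hχc k hk
  have h1 : Cfsg.classInner (fun g => χ g * conj (χ g)) (Cfsg.indFun (commSub m) κf) ≠ 0 := by
    rw [classInner_conj_symm, frobenius_reciprocity (commSub m) κf
      (Helper3.isClassFunction_of_isCharacter (isCharacter_normSq hχc))]
    intro h
    rw [map_eq_zero] at h
    exact classInner_lin_ne_zero κf (fun t : commSub m => χ (t : G)) hne1 hii h
  have h2 : Cfsg.classInner (fun g => χ (g ^ k) * conj (χ (g ^ k)))
      (Cfsg.indFun (commSub m) κf) ≠ 0 := by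
    rw [classInner_conj_symm, frobenius_reciprocity (commSub m) κf
      (Helper3.isClassFunction_of_isCharacter (isCharacter_normSq hχkc))]
    intro h
    rw [map_eq_zero] at h
    refine classInner_lin_ne_zero κf (fun t : commSub m => χ ((t : G) ^ k)) ?_ hiii h
    show χ (((1 : commSub m) : G) ^ k) ≠ 0
    rw [Subgroup.coe_one, one_pow]
    exact hne1
  exact not_irr_of_common hχ k hk hω hω1 h1 h2 hirr

end ClassTwo

section Abelian

variable {G : Type u} [Group G] [Fintype G]

/-- **Step A**: abelian normal subgroups are central. -/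
theorem abelian_normal_le_center {χ : G → ℂ} (hχ : Cfsg.IsIrrCharacter G χ)
    (hfaith : ∀ g : G, χ g = χ 1 → g = 1) (k : ℕ) (hk : Nat.Coprime k (Nat.card G))
    (hirr : Cfsg.IsIrrCharacter G (fun g => χ g * χ (g ^ k)))
    (A : Subgroup G) [hA : A.Normal] (hab : ∀ a ∈ A, ∀ b ∈ A, a * b = b * a) :
    A ≤ Subgroup.center G := by
  classical
  haveI : Fintype A := Fintype.ofFinite _
  haveI : Fintype (Cfsg.IrrCharacter A) := Fintype.ofFinite _
  have hχc := Helper3.isCharacter_of_irr hχ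
  have hne1 := Helper80.char_one_ne_zero hχ
  have hcl := Helper3.isClassFunction_of_isCharacter hχc
  -- an irreducible constituent of `χ_A`
  obtain ⟨mm, hmm, hsum⟩ := char_eq_sum_irr (isCharacter_res A hχc)
  have hex : ∃ lam : Cfsg.IrrCharacter A, mm lam ≠ 0 := by
    by_contra hcon
    push Not at hcon
    have h0 : (fun a : A => χ a) = 0 := by
      rw [hsum]
      simp [hcon]
    have h1 := congrFun h0 1
    exact hne1 h1
  obtain ⟨⟨lam, hlam⟩, hlam0⟩ := hex
  have hconst : Cfsg.classInner (fun a : A => χ a) lam ≠ 0 := by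
    rw [hmm ⟨lam, hlam⟩]
    exact_mod_cast hlam0
  have hlam1 : lam 1 = 1 :=
    Helper82.irr_one_eq_one_of_comm (fun a b => Subtype.ext (hab a a.2 b b.2)) hlam
  have hlamc := Helper3.isCharacter_of_irr hlam
  by_cases hTtop : inertia A lam = ⊤
  · -- the invariant case
    have hinv : ∀ g : G, conjChar A lam g = lam := (inertia_eq_top_iff A lam).mp hTtop
    have hres := res_eq_smul_of_invariant A hχ hlam hconst hinv
    intro a ha
    rw [Subgroup.mem_center_iff]
    intro g
    have hw : g * a * g⁻¹ * a⁻¹ ∈ A := A.mul_mem (hA.conj_mem a ha g) (A.inv_mem ha)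
    have hχw : χ (g * a * g⁻¹ * a⁻¹) = χ 1 := by
      have e1 := congrFun hres ⟨g * a * g⁻¹ * a⁻¹, hw⟩
      have e2 := congrFun hres 1
      simp only [Pi.smul_apply, smul_eq_mul] at e1 e2
      have e3 : lam ⟨g * a * g⁻¹ * a⁻¹, hw⟩ = 1 := by
        have e : (⟨g * a * g⁻¹ * a⁻¹, hw⟩ : A) =
            ⟨g * a * g⁻¹, hA.conj_mem a ha g⟩ * (⟨a, ha⟩ : A)⁻¹ := Subtype.ext rfl
        rw [e, Helper15.linChar_mul hlamc hlam1]
        have hinv' := (forall_conjChar_eq_iff A lam).mp hinv g ⟨a, ha⟩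
        rw [hinv', ← Helper15.linChar_mul hlamc hlam1, mul_inv_cancel, hlam1]
      rw [hlam1, mul_one] at e2
      rw [e1, e3, mul_one, ← e2]
      rfl
    have h1 := hfaith _ hχw
    calc g * a = (g * a * g⁻¹ * a⁻¹) * (a * g) := by group
      _ = a * g := by rw [h1, one_mul]
  · -- the induced case
    exfalso
    haveI : Fintype (inertia A lam) := Fintype.ofFinite _
    haveI : Fintype (Cfsg.IrrCharacter (inertia A lam)) := Fintype.ofFinite _
    have hAT : A ≤ inertia A lam :=
      le_inertia A (Helper3.isClassFunction_of_isCharacter hlamc)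
    obtain ⟨ψ, hψ, hind, -⟩ := clifford_correspondence A (inertia A lam) hAT hχ hlam
      (fun g => mem_inertia_iff A lam g) hconst
    have hψc := Helper3.isCharacter_of_irr hψ
    have hχk := isIrrCharacter_pow hχ k hk
    have hχkc := Helper3.isCharacter_of_irr hχk
    have hχkcl := Helper3.isClassFunction_of_isCharacter hχkc
    have hη : (fun g => χ g * χ (g ^ k)) =
        Cfsg.indFun (inertia A lam) (ψ * fun t : inertia A lam => χ ((t : G) ^ k)) := by
      rw [← Helper3.indFun_mul (inertia A lam) ψ hχkcl, hind]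
      rfl
    have hηcl : Cfsg.IsClassFunction G (fun g => χ g * χ (g ^ k)) :=
      Helper3.isClassFunction_of_isCharacter (Helper3.isCharacter_of_irr hirr)
    have hnorm := Helper3.classInner_irr_self hirr
    have hfr := frobenius_reciprocity (inertia A lam)
      (ψ * fun t : inertia A lam => χ ((t : G) ^ k)) hηcl
    rw [← hη, hnorm] at hfr
    have hrew : Cfsg.classInner (ψ * fun t : inertia A lam => χ ((t : G) ^ k))
        (fun t : inertia A lam => χ (t : G) * χ ((t : G) ^ k)) =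
        Cfsg.classInner (fun t : inertia A lam => χ ((t : G) ^ k) * conj (χ ((t : G) ^ k)))
          (fun t : inertia A lam => χ (t : G) * conj (ψ t)) := by
      unfold Cfsg.classInner
      congr 1
      refine Finset.sum_congr rfl (fun t _ => ?_)
      simp only [Pi.mul_apply, map_mul, Complex.conj_conj]
      ring
    rw [hrew] at hfr
    have hresχ : Cfsg.IsCharacter (inertia A lam) (fun t : inertia A lam => χ (t : G)) :=
      isCharacter_res (inertia A lam) hχc
    have hresχk : Cfsg.IsCharacter (inertia A lam)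
        (fun t : inertia A lam => χ ((t : G) ^ k)) := isCharacter_res (inertia A lam) hχkc
    have hX : Cfsg.IsCharacter (inertia A lam)
        (fun t : inertia A lam => χ ((t : G) ^ k) * conj (χ ((t : G) ^ k))) :=
      isCharacter_normSq hresχk
    have hY : Cfsg.IsCharacter (inertia A lam)
        (fun t : inertia A lam => χ (t : G) * conj (ψ t)) :=
      Helper80.isCharacter_mul hresχ (Helper80.isCharacter_conj hψc)
    have hχψ : Cfsg.classInner (fun t : inertia A lam => χ (t : G)) ψ = ((1 : ℕ) : ℂ) := by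
      rw [classInner_conj_symm, ← frobenius_reciprocity (inertia A lam) ψ hcl, hind,
        Helper3.classInner_irr_self hχ]
      simp
    have hY1 : Cfsg.classInner (fun t : inertia A lam => χ (t : G) * conj (ψ t))
        (fun _ => (1 : ℂ)) = ((1 : ℕ) : ℂ) := by
      rw [← hχψ]
      unfold Cfsg.classInner
      congr 1
      refine Finset.sum_congr rfl (fun t _ => ?_)
      simp
    obtain ⟨b, hb⟩ := classInner_char_nat hresχ hresχ
    -- reindexing by the power map
    have hcop : (Nat.card (inertia A lam)).Coprime k :=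
      Nat.Coprime.coprime_dvd_left (Subgroup.card_subgroup_dvd_card _) hk.symm
    have hbk : Cfsg.classInner (fun t : inertia A lam => χ ((t : G) ^ k))
        (fun t : inertia A lam => χ ((t : G) ^ k)) = (b : ℂ) := by
      rw [← hb]
      unfold Cfsg.classInner
      congr 1
      exact Equiv.sum_comp (powCoprime hcop)
        (fun t : inertia A lam => χ (t : G) * conj (χ (t : G)))
    have hX1 : Cfsg.classInner
        (fun t : inertia A lam => χ ((t : G) ^ k) * conj (χ ((t : G) ^ k)))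
        (fun _ => (1 : ℂ)) = (b : ℂ) := by
      rw [classInner_normSq_one (fun t : inertia A lam => χ ((t : G) ^ k)), hbk]
    have hn : Cfsg.classInner
        (fun t : inertia A lam => χ ((t : G) ^ k) * conj (χ ((t : G) ^ k)))
        (fun t : inertia A lam => χ (t : G) * conj (ψ t)) = ((1 : ℕ) : ℂ) := by
      rw [← hfr]
      simp
    have hle := mult_mul_le hX hY (Helper80.isIrrCharacter_one (G := inertia A lam)) hX1 hY1 hn
    -- `b ≥ 1`
    have hb1 := mult_mul_le hresχ hresχ hψ hχψ hχψ hb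
    -- `b ≠ 1`
    have hbne : b ≠ 1 := by
      intro h1
      rw [h1] at hb
      have hirrT : Cfsg.IsIrrCharacter (inertia A lam) (fun t : inertia A lam => χ (t : G)) :=
        isIrrCharacter_of_classInner_self hresχ (by rw [hb]; simp)
      have heq : (fun t : inertia A lam => χ (t : G)) = ψ := by
        by_contra hne
        have h0 := Helper3.classInner_irr_ne hirrT hψ hne
        rw [hχψ] at h0
        simp at h0
      have h2 : χ 1 = ψ 1 := congrFun heq 1
      have h3 := indFun_one (inertia A lam) ψ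
      rw [hind, ← h2] at h3
      have h4 : ((inertia A lam).index : ℂ) = 1 := by
        have h5 : ((inertia A lam).index : ℂ) * χ 1 = 1 * χ 1 := by rw [one_mul]; exact h3.symm
        exact mul_right_cancel₀ hne1 h5
      have h6 : (inertia A lam).index = 1 := by exact_mod_cast h4
      exact hTtop (Subgroup.index_eq_one.mp h6)
    omega

end Abelian

section Nilpotent

variable {G : Type u} [Group G] [Fintype G]

/-- **Step C**: normal nilpotent subgroups are central. -/
theorem normal_nilpotent_le_center {χ : G → ℂ} (hχ : Cfsg.IsIrrCharacter G χ)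
    (hfaith : ∀ g : G, χ g = χ 1 → g = 1) (k : ℕ) (hk : Nat.Coprime k (Nat.card G))
    (hirr : Cfsg.IsIrrCharacter G (fun g => χ g * χ (g ^ k)))
    (N : Subgroup G) [hN : N.Normal] (hnil : Group.IsNilpotent N) :
    N ≤ Subgroup.center G := by
  have key : ∀ i : ℕ, (Subgroup.upperCentralSeries N i).map N.subtype ≤ Subgroup.center G := by
    intro i
    induction i with
    | zero =>
      rw [Subgroup.upperCentralSeries_zero, Subgroup.map_bot]
      exact bot_le
    | succ i ih =>
      haveI hMn : ((Subgroup.upperCentralSeries N (i + 1)).map N.subtype).Normal :=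
        ConjAct.normal_of_characteristic_of_normal
      apply le_center_of_class_two hχ hfaith k hk hirr
        ((Subgroup.upperCentralSeries N (i + 1)).map N.subtype)
      · rintro x ⟨x', hx', rfl⟩ y ⟨y', hy', rfl⟩
        apply ih
        have hxy := Subgroup.mem_upperCentralSeries_succ_iff.mp hx' y'
        rw [commutatorElement_def] at hxy
        exact ⟨x' * y' * x'⁻¹ * y'⁻¹, hxy, rfl⟩
      · intro y hy hcomm
        have hA := abelian_normal_le_center hχ hfaith k hk hirr
          (((Subgroup.upperCentralSeries N (i + 1)).map N.subtype) ⊓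
            Subgroup.centralizer (((Subgroup.upperCentralSeries N (i + 1)).map N.subtype : Subgroup G) : Set G))
          (fun a ha b hb => (Subgroup.mem_centralizer_iff.mp hb.2) a ha.1)
        exact hA ⟨hy, Subgroup.mem_centralizer_iff.mpr (fun x hx => hcomm x hx)⟩
  obtain ⟨n, hn⟩ := hnil.nilpotent'
  intro x hx
  apply key n
  rw [hn]
  exact ⟨⟨x, hx⟩, Subgroup.mem_top _, rfl⟩

end Nilpotent

/-- **S4843**: if `χ` is faithful irreducible and `χ · χ^(k)` is irreducible, then
`F(G) = Z(G)`. -/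
theorem fitting_eq_center {G : Type u} [Group G] [Finite G] {χ : G → ℂ}
    (hχ : Cfsg.IsIrrCharacter G χ) (hfaith : ∀ g : G, χ g = χ 1 → g = 1) (k : ℕ)
    (hk : Nat.Coprime k (Nat.card G))
    (hirr : Cfsg.IsIrrCharacter G (fun g => χ g * χ (g ^ k))) :
    Cfsg.fittingSubgroup G = Subgroup.center G := by
  classical
  haveI : Fintype G := Fintype.ofFinite G
  apply le_antisymm
  · apply sSup_le
    rintro N ⟨hNn, hNnil⟩
    haveI := hNn
    exact normal_nilpotent_le_center hχ hfaith k hk hirr N hNnil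
  · apply le_sSup
    exact ⟨inferInstance, ⟨⟨1, Subgroup.upperCentralSeries_one_eq_top_iff.mpr inferInstance⟩⟩⟩

end Cfsg.Agent.Lib.Helper75.GalProd
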